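import Cfsg.Agent.Lib.SC.Basic
import Mathlib.GroupTheory.SpecificGroups.Alternating

/-!
# The centre of a Sylow 2-subgroup of `A₈`
-/

set_option autoImplicit false

namespace Cfsg.Lib.FT
open Subgroup Cfsg.Lib Equiv

/-- at most one non-trivial central element -/
def UniqCen (X : Type*) [Group X] : Prop :=
  ∀ a b : X, a ∈ center X → b ∈ center X → a ≠ 1 → b ≠ 1 → a = b

theorem UniqCen.of_equiv {X Y : Type*} [Group X] [Group Y] (h : UniqCen X) (e : Y ≃* X) : UniqCen Y := by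
  have key : ∀ a : Y, a ∈ center Y → e a ∈ center X := fun a ha => by
    rw [mem_center_iff] at ha ⊢
    intro g
    obtain ⟨g, rfl⟩ := e.surjective g
    rw [← map_mul, ← map_mul, ha]
  intro a b ha hb h1 h2
  exact e.injective (h _ _ (key a ha) (key b hb) (by simpa using h1) (by simpa using h2))

def a8t1 : Perm (Fin 8) := swap 0 1 * swap 2 3 * swap 4 5 * swap 6 7
def a8t2 : Perm (Fin 8) := swap 0 2 * swap 1 3 * swap 4 6 * swap 5 7
def a8t4 : Perm (Fin 8) := swap 0 4 * swap 1 5 * swap 2 6 * swap 3 7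
def a8J : Perm (Fin 8) := swap 2 3 * (swap 4 7 * swap 4 5 * swap 4 6)

theorem a8_cent (x : Perm (Fin 8)) (h1 : x * a8t1 = a8t1 * x) (h2 : x * a8t2 = a8t2 * x)
    (h4 : x * a8t4 = a8t4 * x) (hJ : x * a8J = a8J * x) : x = 1 ∨ x = a8t1 := by
  have k1 : ∀ p, x (a8t1 p) = a8t1 (x p) := fun p => congrArg (· p) h1
  have k2 : ∀ p, x (a8t2 p) = a8t2 (x p) := fun p => congrArg (· p) h2
  have k4 : ∀ p, x (a8t4 p) = a8t4 (x p) := fun p => congrArg (· p) h4
  have kJ : x 0 = a8J (x 0) := congrArg (· 0) hJ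
  have e1 : x 1 = a8t1 (x 0) := k1 0
  have e2 : x 2 = a8t2 (x 0) := k2 0
  have e3 : x 3 = a8t1 (x 2) := k1 2
  have e4 : x 4 = a8t4 (x 0) := k4 0
  have e5 : x 5 = a8t4 (x 1) := k4 1
  have e6 : x 6 = a8t4 (x 2) := k4 2
  have e7 : x 7 = a8t4 (x 3) := k4 3
  have h0 : x 0 = 0 ∨ x 0 = 1 := (by decide : ∀ y : Fin 8, y = a8J y → y = 0 ∨ y = 1) _ kJ
  have key : ∀ y : Perm (Fin 8), x 0 = y 0 → x 1 = y 1 → x 2 = y 2 → x 3 = y 3 → x 4 = y 4 →
      x 5 = y 5 → x 6 = y 6 → x 7 = y 7 → x = y := by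
    intro y a0 a1 a2 a3 a4 a5 a6 a7
    refine Equiv.ext fun p => ?_
    fin_cases p
    exacts [a0, a1, a2, a3, a4, a5, a6, a7]
  rw [e2] at e3 e6
  rw [e1] at e5
  rw [e3] at e7
  rcases h0 with h0 | h0
  · left
    rw [h0] at e1 e2 e3 e4 e5 e6 e7
    exact key 1 h0 e1 e2 e3 e4 e5 e6 e7
  · right
    rw [h0] at e1 e2 e3 e4 e5 e6 e7
    exact key a8t1 h0 e1 e2 e3 e4 e5 e6 e7

theorem uniqCen_sylow_a8 (P : Sylow 2 (alternatingGroup (Fin 8))) :
    UniqCen (P : Subgroup (alternatingGroup (Fin 8))) := by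
  set T : Subgroup (Perm (Fin 8)) := zpowers a8t1 ⊔ zpowers a8t2 ⊔ zpowers a8t4 with hT
  have m1 : a8t1 ∈ T := mem_sup_left (mem_sup_left (mem_zpowers _))
  have m2 : a8t2 ∈ T := mem_sup_left (mem_sup_right (mem_zpowers _))
  have m4 : a8t4 ∈ T := mem_sup_right (mem_zpowers _)
  have hE : IsElementaryAbelian 2 T := by
    refine elemAb_sup (elemAb_sup (elemAb_zpowers (by decide)) (elemAb_zpowers (by decide)) ?_)
      (elemAb_zpowers (by decide)) (sup_le ?_ ?_) <;>
    · rw [centralizer_zpowers, zpowers_le, mem_centralizer_singleton_iff]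
      decide
  have hJ : a8J ∈ N[T] := by
    refine mem_normalizer_iff_map_conj.2 (eq_of_le_of_card_ge ?_ (card_map_conj _ _).ge)
    rw [hT, conj_sup, conj_sup, conj_zpowers, conj_zpowers, conj_zpowers,
      show a8J * a8t1 * a8J⁻¹ = a8t1 by decide, show a8J * a8t2 * a8J⁻¹ = a8t1 * a8t2 by decide,
      show a8J * a8t4 * a8J⁻¹ = a8t2 * a8t4 by decide]
    exact sup_le (sup_le (zpowers_le.2 m1) (zpowers_le.2 (T.mul_mem m1 m2))) (zpowers_le.2 (T.mul_mem m2 m4))
  have hJ2 : IsPGroup 2 (zpowers a8J) := by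
    refine IsPGroup.of_card (n := 2) ?_
    rw [Nat.card_zpowers]
    exact orderOf_eq_prime_pow (by decide) (by decide)
  have hQ : IsPGroup 2 ↥(zpowers a8J ⊔ T) :=
    hJ2.to_sup_of_normal_right' (elemAb_isPGroup hE) (zpowers_le.2 hJ)
  obtain ⟨P', hP'⟩ := (hQ.comap_subtype (K := alternatingGroup (Fin 8))).exists_le_sylow
  refine UniqCen.of_equiv (X := (P' : Subgroup (alternatingGroup (Fin 8)))) ?_ (Sylow.equiv P P')
  have key : ∀ a : (P' : Subgroup (alternatingGroup (Fin 8))), a ∈ center _ → a ≠ 1 →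
      ((a : alternatingGroup (Fin 8)) : Perm (Fin 8)) = a8t1 := by
    intro a ha h1
    have hc : ∀ g ∈ zpowers a8J ⊔ T, Perm.sign g = 1 →
        ((a : alternatingGroup (Fin 8)) : Perm (Fin 8)) * g = g * a := fun g hg hs => by
      have := mem_center_iff.1 ha ⟨⟨g, Perm.mem_alternatingGroup.2 hs⟩, hP' hg⟩
      exact (congrArg (fun y : (P' : Subgroup (alternatingGroup (Fin 8))) =>
        ((y : alternatingGroup (Fin 8)) : Perm (Fin 8))) this).symm
    refine (a8_cent _ (hc _ (mem_sup_right m1) (by decide)) (hc _ (mem_sup_right m2) (by decide))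
      (hc _ (mem_sup_right m4) (by decide)) (hc _ (mem_sup_left (mem_zpowers _)) (by decide))).resolve_left ?_
    exact fun e => h1 (Subtype.ext (Subtype.ext e))
  intro a b ha hb h1 h2
  exact Subtype.ext (Subtype.ext ((key a ha h1).trans (key b hb h2).symm))

theorem card_sylow_a8 (P : Sylow 2 (alternatingGroup (Fin 8))) :
    Nat.card (P : Subgroup (alternatingGroup (Fin 8))) = 64 := by
  have h := two_mul_nat_card_alternatingGroup (α := Fin 8)
  rw [Nat.card_perm, Nat.card_fin] at h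
  have h2 : Nat.card (alternatingGroup (Fin 8)) = 2 ^ 6 * 315 := by
    have : Nat.factorial 8 = 40320 := by decide
    omega
  rw [P.card_eq_multiplicity, h2, Nat.factorization_mul (by norm_num) (by norm_num),
    Nat.Prime.factorization_pow Nat.prime_two]
  simp [Nat.factorization_eq_zero_of_not_dvd (show ¬ 2 ∣ 315 by norm_num)]

end Cfsg.Lib.FT
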