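import Cfsg.Agent.Lib.SC.Solv

/-!
# Ambient versions of the solvability criteria
-/

set_option autoImplicit false

namespace Cfsg.Lib.FT
open Subgroup Cfsg.Lib
open scoped commutatorElement

variable {G : Type*} [Group G] [Finite G]

omit [Finite G] in
theorem sc_syl_top {p : ℕ} {S M : Subgroup G} (hS : IsSylowIn p S M) :
    IsSylowIn p (S.subgroupOf M) ⊤ := by
  obtain ⟨P, hP⟩ := hS.exists_sylow'
  rw [← hP]
  exact IsSylowIn.of_sylow_top P

omit [Finite G] in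
theorem sc_mem_zpowers_coe {M : Subgroup G} {b x : M} (h : (x : G) ∈ zpowers (b : G)) : x ∈ zpowers b := by
  obtain ⟨k, hk⟩ := h
  exact ⟨k, Subtype.ext (by simpa using hk)⟩

omit [Finite G] in
theorem sc_coe_mem_zpowers {M : Subgroup G} {b x : M} (h : x ∈ zpowers b) : (x : G) ∈ zpowers (b : G) := by
  obtain ⟨k, rfl⟩ := h
  exact ⟨k, by simp⟩

omit [Finite G] in
theorem sc_solv_c1_coe {M : Subgroup G} {t : M} (h : Group.IsSolvable C1[(t : G)]) :
    Group.IsSolvable C1[t] := by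
  have : C1[t] = C1[(t : G)].comap M.subtype := by
    ext x
    simp only [mem_comap, mem_centralizer_singleton_iff, coe_subtype]
    exact ⟨fun e => congrArg Subtype.val e, fun e => Subtype.ext e⟩
  rw [this]
  refine isSolvable_comap _ _ ?_ h
  rw [ker_subtype]
  infer_instance

theorem sc_solv_of_isolated_mod' {M S : Subgroup G} (hS : IsSylowIn 2 S M) {b t : G} (hbM : b ∈ M)
    (hb : M ≤ C1[b]) (hb2 : b ^ 2 = 1) (ht : t ∈ S) (ht2 : t ^ 2 = 1)
    (h : ∀ g ∈ M, g * t * g⁻¹ ∈ S → g * t * g⁻¹ * t⁻¹ ∈ zpowers b) (hs : Group.IsSolvable C1[t]) :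
    Group.IsSolvable M := by
  refine sc_solv_of_isolated_mod (sc_syl_top hS) (b := ⟨b, hbM⟩) (t := ⟨t, hS.le ht⟩) ?_
    (Subtype.ext hb2) ht (Subtype.ext ht2) (fun g hg => sc_mem_zpowers_coe (h g g.2 hg)) (sc_solv_c1_coe hs)
  exact mem_center_iff.2 fun g => Subtype.ext (mem_centralizer_singleton_iff.1 (hb g.2))

theorem exists_index_two_of_closed' {M S Q : Subgroup G} (hS : IsSylowIn 2 S M) (hQS : Q ≤ S)
    (h : Q.relIndex S = 2) (hc : ∀ x ∈ S, ∀ g ∈ M, g * x * g⁻¹ ∈ Q → x ∈ Q) :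
    ∃ H ≤ M, IsSylowIn 2 Q H ∧ (Group.IsSolvable H → Group.IsSolvable M) := by
  obtain ⟨H, h2, hH⟩ := exists_index_two_of_closed (sc_syl_top hS) (Q := Q.subgroupOf M)
    (by rw [relIndex_subgroupOf hS.le, h]) (fun x hx g hg => hc x hx g g.2 hg)
  have hn := normal_of_index_eq_two h2
  refine ⟨H.map M.subtype, map_subtype_le _, ?_, fun hs => sc_solv_of_index_two h2 ?_⟩
  · have h1 := ((sc_syl_top hS).inf_of_le_normalizer (N := H) le_top le_normalizer_of_normal).map M.subtype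
    have h3 : S.subgroupOf M ⊓ H = Q.subgroupOf M := by
      ext x
      exact ⟨fun hx => (hH x hx.1).1 hx.2, fun hx => ⟨hQS hx, (hH x (hQS hx)).2 hx⟩⟩
    rwa [h3, map_subgroupOf_eq_of_le (hQS.trans hS.le)] at h1
  · exact Group.isSolvable_of_isSolvable_injective
      (f := (H.equivMapOfInjective _ M.subtype_injective).toMonoidHom)
      (H.equivMapOfInjective _ M.subtype_injective).injective

theorem sc_solv_of_free_mod {Q : Subgroup G} (hQ : IsSylowIn 2 Q ⊤) {z : G} (hz : z ∈ center G)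
    (hz2 : z ^ 2 = 1) (hsq : ∀ x ∈ Q, x ^ 2 ∈ zpowers z) (h16 : 16 ≤ Nat.card Q)
    (hf : ∀ n ∈ N[Q], ∀ u ∈ Q, u ∉ zpowers z → n * u * n⁻¹ * u⁻¹ ∈ zpowers z →
      ∀ y ∈ Q, n ^ 2 * y * (n ^ 2)⁻¹ * y⁻¹ ∈ zpowers z)
    {a b : G} (ha : a ∈ Q) (hb : b ∈ Q) (ha1 : a ∉ zpowers z) (hb1 : b ∉ zpowers z)
    (hab : ∀ g : G, g * a * g⁻¹ * b⁻¹ ∉ zpowers z) : Group.IsSolvable G := by
  have hZ : zpowers z ≤ center G := zpowers_le.2 hz
  have hn : (zpowers z).Normal := ⟨fun x hx g => by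
    rw [mem_center_iff.1 (hZ hx) g, mul_inv_cancel_right]; exact hx⟩
  have hbp : IsPGroup 2 (zpowers z) := elemAb_isPGroup (elemAb_zpowers hz2)
  have hbS : zpowers z ≤ Q := hQ.le_of_normalizes hbp le_top le_normalizer_of_normal
  set f := QuotientGroup.mk' (zpowers z) with hfd
  have hsur : Function.Surjective f := QuotientGroup.mk'_surjective _
  have hker : f.ker = zpowers z := QuotientGroup.ker_mk' _
  have hmem : ∀ x, f x = 1 ↔ x ∈ zpowers z := fun x => by rw [← MonoidHom.mem_ker, hker]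
  have h1 := hQ.map f
  rw [map_top_of_surjective _ hsur] at h1
  have hexp : ∀ x ∈ Q.map f, x ^ 2 = 1 := by
    rintro _ ⟨x, hx, rfl⟩
    rw [← map_pow, hmem]
    exact hsq x hx
  have hE : IsElementaryAbelian 2 (Q.map f) := by
    refine ⟨IsMulCommutative.of_setLike_mul_comm fun x hx y hy => ?_, hexp⟩
    have e1 : x⁻¹ = x := by rw [inv_eq_iff_mul_eq_one, ← sq, hexp x hx]
    have e2 : y⁻¹ = y := by rw [inv_eq_iff_mul_eq_one, ← sq, hexp y hy]
    have e3 : (x * y)⁻¹ = x * y := by rw [inv_eq_iff_mul_eq_one, ← sq, hexp _ (mul_mem hx hy)]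
    rw [← e3, mul_inv_rev, e1, e2]
  have h8 : 2 ^ 3 ≤ Nat.card (Q.map f) := by
    have := pg_card_map_mul_card_ker f Q
    rw [hker, inf_eq_right.2 hbS, Nat.card_zpowers] at this
    have h2 : orderOf z ≤ 2 := Nat.le_of_dvd two_pos (orderOf_dvd_of_pow_eq_one hz2)
    nlinarith
  refine isSolvable_of_normal_quotient (zpowers z) (isSolvable_of_isPGroup hbp)
    (sc_solv_of_free h1 hE h8 (fun n hn u hu hu1 e => ?_) (mem_map_of_mem f ha) (mem_map_of_mem f hb)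
      (fun e => ha1 ((hmem _).1 e)) (fun e => hb1 ((hmem _).1 e)) fun e => ?_)
  · obtain ⟨n, rfl⟩ := hsur n
    obtain ⟨u, hu, rfl⟩ := hu
    have hn' : n ∈ N[Q] := by
      have := le_normalizer_sup_ker f (M := zpowers n) (Q := Q) (by rwa [MonoidHom.map_zpowers, zpowers_le])
      rw [hker, sup_eq_left.2 hbS] at this
      exact this (mem_zpowers n)
    have h3 := hf n hn' u hu (fun e => hu1 ((hmem _).2 e)) (by
      rw [← hmem, map_mul, map_mul, map_mul, map_inv, map_inv, e, mul_inv_cancel])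
    rw [mem_centralizer_iff]
    rintro _ ⟨y, hy, rfl⟩
    have := (hmem _).2 (h3 y hy)
    simp only [map_mul, map_inv, map_pow] at this
    rw [mul_inv_eq_one] at this
    rw [← this]
    simp only [this]
    exact (mul_inv_eq_iff_eq_mul.1 this).symm
  · obtain ⟨g, hg⟩ := isConj_iff.1 e
    obtain ⟨g, rfl⟩ := hsur g
    refine hab g ((hmem _).1 ?_)
    rw [map_mul, map_mul, map_mul, map_inv, map_inv, hg, mul_inv_cancel]

theorem sc_solv_of_free_mod' {M Q : Subgroup G} (hQ : IsSylowIn 2 Q M) {z : G} (hzM : z ∈ M)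
    (hz : M ≤ C1[z]) (hz2 : z ^ 2 = 1) (hsq : ∀ x ∈ Q, x ^ 2 ∈ zpowers z) (h16 : 16 ≤ Nat.card Q)
    (hf : ∀ n ∈ M, n ∈ N[Q] → ∀ u ∈ Q, u ∉ zpowers z → n * u * n⁻¹ * u⁻¹ ∈ zpowers z →
      ∀ y ∈ Q, n ^ 2 * y * (n ^ 2)⁻¹ * y⁻¹ ∈ zpowers z)
    {a b : G} (ha : a ∈ Q) (hb : b ∈ Q) (ha1 : a ∉ zpowers z) (hb1 : b ∉ zpowers z)
    (hab : ∀ g ∈ M, g * a * g⁻¹ * b⁻¹ ∉ zpowers z) : Group.IsSolvable M := by
  refine sc_solv_of_free_mod (sc_syl_top hQ) (z := ⟨z, hzM⟩)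
    (mem_center_iff.2 fun g => Subtype.ext (mem_centralizer_singleton_iff.1 (hz g.2))) (Subtype.ext hz2)
    (fun x hx => sc_mem_zpowers_coe (hsq x hx)) (by rwa [card_subgroupOf_of_le hQ.le])
    (fun n hn u hu hu1 e y hy => sc_mem_zpowers_coe (hf n n.2 ?_ u hu
      (fun e => hu1 (sc_mem_zpowers_coe e)) (sc_coe_mem_zpowers e) y hy))
    (a := ⟨a, hQ.le ha⟩) (b := ⟨b, hQ.le hb⟩) ha hb (fun e => ha1 (sc_coe_mem_zpowers e))
    (fun e => hb1 (sc_coe_mem_zpowers e)) fun g e => hab g g.2 (sc_coe_mem_zpowers e)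
  rw [← subgroupOf_normalizer_eq hQ.le] at hn
  exact hn

end Cfsg.Lib.FT
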