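import Cfsg.Agent.Lib.SC.Main
import Cfsg.Agent.Lib.SC.A8

/-!
# Construction of the model
-/

set_option autoImplicit false

namespace Cfsg.Lib.FT.O4
open Subgroup Cfsg.Lib Cfsg.Lib.FT Equiv

variable {G : Type*} [Group G]

def V4s : Subgroup S5 where
  carrier := {σ | v4 σ}
  mul_mem' := d_v4_mul _ _
  one_mem' := by show v4 1; decide
  inv_mem' := fun {σ} h => by show v4 σ⁻¹; rwa [d_v4_inv σ h]

theorem card_V4s : Nat.card V4s = 4 := by
  have : Nat.card V4s = Fintype.card {σ : S5 // v4 σ} := Nat.card_eq_fintype_card (α := {σ : S5 // v4 σ})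
  rw [this]
  decide +kernel

/-- an automorphism of order dividing 5 of a group of order 16 with a non-trivial fixed point is trivial -/
theorem fix_five [Finite G] {A : Subgroup G} (hA : Nat.card A = 16) {n : G} (hn : n ∈ N[A])
    (h5 : n ^ 5 ∈ C[A]) {z : G} (hz : z ∈ A) (hz1 : z ≠ 1) (hc : n * z = z * n) : n ∈ C[A] := by
  have : Fact (Nat.Prime 5) := ⟨by norm_num⟩
  let φ : MulAut A := A.normalizerMonoidHom ⟨n, hn⟩
  have hφ : ∀ x : A, (φ x : G) = n * x * n⁻¹ := fun x => rfl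
  have h1 : φ ^ 5 = 1 := by
    have : (⟨n, hn⟩ : N[A]) ^ 5 ∈ A.normalizerMonoidHom.ker := by
      rw [normalizerMonoidHom_ker]; exact h5
    rwa [MonoidHom.mem_ker, map_pow] at this
  have hp : IsPGroup 5 (zpowers φ) := elemAb_isPGroup (elemAb_zpowers h1)
  have h2 := hp.card_modEq_card_fixedPoints A
  let F : Subgroup A := φ.toMonoidHom.eqLocus (MonoidHom.id A)
  have h3 : Nat.card (MulAction.fixedPoints (zpowers φ) A) = Nat.card F := by
    refine Nat.card_congr (Equiv.setCongr ?_)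
    ext x
    refine ⟨fun hx => hx ⟨φ, mem_zpowers φ⟩, fun hx g => ?_⟩
    exact (zpowers_le (H := MulAction.stabilizer (MulAut A) x)).2 hx g.2
  have h4 : Nat.card F ∣ 2 ^ 4 := by
    have := card_subgroup_dvd_card F
    rwa [hA] at this
  have h6 : Nat.card F ≠ 1 := by
    rw [Ne, card_eq_one, eq_bot_iff_forall]
    intro e
    refine hz1 (congrArg Subtype.val (e ⟨z, hz⟩ (Subtype.ext ?_)))
    change n * z * n⁻¹ = z
    rw [hc]; group
  obtain ⟨k, hk, e⟩ := (Nat.dvd_prime_pow Nat.prime_two).1 h4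
  rw [h3, hA, e] at h2
  rw [e] at h6
  have h7 : F = ⊤ := by
    refine eq_top_of_card_eq F ?_
    rw [e, hA]
    interval_cases k <;> simp_all [Nat.ModEq]
  rw [mem_centralizer_iff]
  intro x hx
  have : φ ⟨x, hx⟩ = ⟨x, hx⟩ := (h7 ▸ mem_top _ : (⟨x, hx⟩ : A) ∈ F)
  have := (hφ ⟨x, hx⟩).symm.trans (congrArg Subtype.val this)
  calc x * n = n * x * n⁻¹ * n := by rw [this]
    _ = n * x := by group

theorem d_ker : ∀ v : V5, v ≠ 0 → v ≠ 1 → ∃ σ : S5, ev σ ∧ ∃ i j, i ≠ j ∧ v + pv σ v = e5 i + e5 j := by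
  decide +kernel
theorem d_two : ∀ i j : Fin 5, i ≠ j → ∃ σ : S5, ev σ ∧ σ i = 4 ∧ σ j = finRotate 5 4 := by decide +kernel
theorem d_pve : ∀ (σ : S5) (i : Fin 5), pv σ (e5 i) = e5 (σ i) := by decide +kernel
theorem d_one : ∀ i : Fin 5, ∃ σ : S5, ev σ ∧ σ 4 = i := by decide +kernel

theorem exists_mod_aux [Finite G] {A S : Subgroup G} (hA : IsElementaryAbelian 2 A) (h16 : Nat.card A = 16)
    (ψ : N[A] →* S5) (hev : ∀ n, ev (ψ n)) (hsur : ∀ σ, ev σ → ∃ n, ψ n = σ)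
    (hker : ∀ n, ψ n = 1 → (n : G) ∈ C[A]) (hK : ∀ n : N[A], (n : G) ∈ C[A] → ψ n = 1 ∨ N[A] ≤ C[A])
    (hsyl : (∀ n : N[A], (n : G) ∈ C[A] → ψ n = 1) → IsSylowIn 2 A C[A])
    (hS : IsSylowIn 2 S ⊤) (hAS : A ≤ S) (hSN : S ≤ N[A]) (hact : ∀ n : N[A], (n : G) ∈ S → v4 (ψ n))
    (hfull : ∀ σ, v4 σ → ∃ n : N[A], (n : G) ∈ S ∧ ψ n = σ) (h64 : Nat.card S = 64) (hU : UniqCen S) :
    ∃ w, Mod A S w := by
  have hAC := elemAb_le_centralizer hA
  have huniq : ∀ a ∈ A, ∀ b ∈ A, a ≠ 1 → b ≠ 1 → a ∈ C[S] → b ∈ C[S] → a = b := by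
    intro a ha b hb h1 h2 h3 h4
    exact congrArg Subtype.val (hU ⟨a, hAS ha⟩ ⟨b, hAS hb⟩
      (mem_center_iff.2 fun g => Subtype.ext (h3 g g.2)) (mem_center_iff.2 fun g => Subtype.ext (h4 g g.2))
      (fun e => h1 (congrArg Subtype.val e)) fun e => h2 (congrArg Subtype.val e))
  have hne : A ≠ ⊥ := fun e => by rw [e, card_bot] at h16; omega
  obtain ⟨z, ⟨hzA, hzS⟩, hz1⟩ : ∃ z ∈ A ⊓ C[S], z ≠ 1 := by
    have := inf_centralizer_ne_bot_of_isNilpotent hS.isPGroup.isNilpotent hAS hSN hne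
    obtain ⟨⟨z, hz⟩, h1⟩ := ne_bot_iff_exists_ne_one.1 this
    exact ⟨z, hz, fun e => h1 (Subtype.ext e)⟩
  have hnc : ¬ N[A] ≤ C[A] := fun e => by
    have h1 : ∀ a ∈ A, a = 1 ∨ a = z := fun a ha => by
      by_cases h1 : a = 1
      · exact Or.inl h1
      · exact Or.inr (huniq a ha z hzA h1 hz1 (le_centralizer_iff.1 (hSN.trans e) ha) hzS)
    have h2 : A ≤ zpowers z := fun a ha => (h1 a ha).elim (fun e => e ▸ one_mem _) fun e => e ▸ mem_zpowers _
    have := card_le_of_le h2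
    rw [Nat.card_zpowers, elemAb_orderOf hA hzA hz1] at this
    omega
  have hK' : ∀ n : N[A], (n : G) ∈ C[A] → ψ n = 1 := fun n hn => (hK n hn).resolve_right hnc
  -- elements over the four-group centralize `z`
  have hv4 : ∀ n : N[A], v4 (ψ n) → (n : G) * z * (n : G)⁻¹ = z := fun n hn => by
    obtain ⟨s, hs, e⟩ := hfull _ hn
    have h1 := hker (s⁻¹ * n) (by rw [map_mul, map_inv, e, inv_mul_cancel])
    have h2 := h1 z hzA
    have h3 := hzS s hs
    simp only [coe_mul, coe_inv] at h2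
    calc (n : G) * z * (n : G)⁻¹ = s * ((s : G)⁻¹ * n * z) * (n : G)⁻¹ := by group
      _ = s * z * (s : G)⁻¹ := by rw [← h2]; group
      _ = z := by rw [h3]; group
  have hfix : ∀ n : N[A], ψ n 4 = 4 → (n : G) * z * (n : G)⁻¹ = z := fun n hn => by
    refine huniq _ ((mem_normalizer_iff.1 n.2 z).1 hzA) z hzA (by simpa using hz1) hz1 (fun s hs => ?_) hzS
    have h1 := hv4 (n⁻¹ * ⟨s, hSN hs⟩ * n⁻¹⁻¹) (by
      rw [map_mul, map_mul, map_inv ψ n⁻¹]
      refine d_v4_conj _ _ (hev _) ?_ (hact _ hs)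
      rw [map_inv, Perm.inv_eq_iff_eq, hn])
    simp only [coe_mul, coe_inv, inv_inv] at h1
    calc s * (n * z * (n : G)⁻¹) = n * (((n : G)⁻¹ * s * n) * z * ((n : G)⁻¹ * s * n)⁻¹) * (n : G)⁻¹ * s := by
          group
      _ = _ := by rw [h1]
  choose g hg hg' using d_one
  choose ng hng using fun i => hsur (g i) (hg i)
  let a : Fin 5 → G := fun i => ng i * z * (ng i : G)⁻¹
  have haA : ∀ i, a i ∈ A := fun i => (mem_normalizer_iff.1 (ng i).2 z).1 hzA
  have haeq : ∀ (n : N[A]) i, (n : G) * a i * (n : G)⁻¹ = a (ψ n i) := fun n i => by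
    have h1 := hfix ((ng (ψ n i))⁻¹ * n * ng i) (by
      rw [map_mul, map_mul, map_inv, hng, hng, Perm.mul_apply, Perm.mul_apply, hg', Perm.inv_eq_iff_eq, hg'])
    simp only [coe_mul, coe_inv] at h1
    simp only [a]
    conv_rhs => rw [← h1]
    group
  have ha4 : a 4 = z := hfix (ng 4) (by rw [hng, hg'])
  have := hA.1
  let a' : Fin 5 → A := fun i => ⟨a i, haA i⟩
  have hsq : ∀ x : A, x ^ 2 = 1 := fun x => Subtype.ext (hA.2 x x.2)
  have hpow : ∀ (x : A) (s t : ZMod 2), x ^ (s + t).val = x ^ s.val * x ^ t.val := fun x s t => by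
    rw [← pow_add, ZMod.val_add, ← pow_eq_pow_mod _ (hsq x)]
  let inst : CommGroup A := { mul_comm := fun x y => mul_comm' x y }
  let w' : V5 → A := fun v => ∏ i, a' i ^ (v i).val
  have hadd : ∀ u v, w' (u + v) = w' u * w' v := fun u v => by
    simp only [w', Pi.add_apply, hpow, Finset.prod_mul_distrib]
  have he : ∀ i, w' (e5 i) = a' i := fun i => by
    simp only [w']
    rw [Finset.prod_eq_single i (fun j _ hj => by simp [e5, hj]) (by simp)]
    simp [e5, ZMod.val_one]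
  have hAct : ∀ n : N[A], Act (fun v => (w' v : G)) n (ψ n) := fun n v => by
    have h1 : ∀ i, A.normalizerMonoidHom n (a' i) = a' (ψ n i) := fun i => Subtype.ext (haeq n i)
    have h2 : A.normalizerMonoidHom n (w' v) = w' (pv (ψ n) v) := by
      simp only [w', map_prod, map_pow, h1]
      exact Fintype.prod_equiv (ψ n) _ _ fun i => by simp [pv]
    exact congrArg Subtype.val h2
  obtain ⟨r, hr⟩ := hsur (finRotate 5) (by decide)
  have hrC : ∀ y ∈ A, (r : G) * y * (r : G)⁻¹ = y → y = 1 := fun y hy e => by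
    by_contra h1
    have h2 := hK' r (fix_five h16 r.2 (hker (r ^ 5) (by rw [map_pow, hr]; decide)) hy h1
      (by rw [← mul_inv_eq_iff_eq_mul, e]))
    rw [hr] at h2
    exact absurd h2 (by decide)
  have h0 : w' 0 = 1 := by simp [w']
  have h1 : w' 1 = 1 := Subtype.ext (hrC _ (w' 1).2 (by have := hAct r 1; exact this))
  have hkw : ∀ v, w' v = 1 ↔ v = 0 ∨ v = 1 := fun v => by
    refine ⟨fun e => ?_, fun e => e.elim (fun e => e ▸ h0) fun e => e ▸ h1⟩
    by_contra hc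
    rw [not_or] at hc
    obtain ⟨σ, hσ, i, j, hij, e1⟩ := d_ker v hc.1 hc.2
    obtain ⟨n, rfl⟩ := hsur σ hσ
    have e2 : w' (pv (ψ n) v) = 1 := Subtype.ext (by
      have := hAct n v
      simp only [e] at this
      rw [← this]; simp)
    have e3 : a' i * a' j = 1 := by rw [← he, ← he, ← hadd, ← e1, hadd, e, e2, one_mul]
    have e4 : a i = a j := by
      have : a' i = a' j := by
        rw [← mul_left_inj (a' j), e3, ← sq, hsq]
      exact congrArg Subtype.val this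
    obtain ⟨τ, hτ, e5, e6⟩ := d_two i j hij
    obtain ⟨m, rfl⟩ := hsur τ hτ
    refine hz1 (hrC z hzA ?_)
    rw [← ha4, haeq r, hr, ← e6, ← haeq, ← e4, haeq, e5]
  let f : Multiplicative V5 →* A := MonoidHom.mk' (fun v => w' v.toAdd) fun u v => hadd _ _
  have hf : Function.Surjective f := by
    have h2 : Nat.card f.ker = 2 := by
      have : (f.ker : Set (Multiplicative V5)) = {Multiplicative.ofAdd 0, Multiplicative.ofAdd 1} := by
        ext v
        exact hkw v.toAdd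
      rw [← SetLike.coe_sort_coe, this, Nat.card_coe_set_eq, Set.ncard_pair (by decide)]
    have h3 := f.ker.card_mul_index
    rw [index_ker, h2, Nat.card_eq_fintype_card (α := Multiplicative V5)] at h3
    rw [← MonoidHom.range_eq_top]
    refine eq_top_of_card_eq _ ?_
    have : Fintype.card (Multiplicative V5) = 32 := by simp
    omega
  refine ⟨fun v => w' v, fun u v => by rw [hadd, coe_mul], fun x => ⟨fun hx => ?_, ?_⟩,
    fun v => by rw [← hkw, OneMemClass.coe_eq_one], fun n hn => ⟨_, hev _, hAct ⟨n, hn⟩⟩,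
    fun σ hσ => ?_, hsyl hK', hA, by omega, hS, hAS, fun x hx => ⟨_, hact ⟨x, hSN hx⟩ hx, hAct ⟨x, hSN hx⟩⟩,
    fun σ hσ => ?_, h64⟩
  · obtain ⟨v, hv⟩ := hf ⟨x, hx⟩
    exact ⟨v.toAdd, congrArg Subtype.val hv⟩
  · rintro ⟨v, rfl⟩
    exact (w' v).2
  · obtain ⟨n, rfl⟩ := hsur σ hσ
    exact ⟨n, hAct n⟩
  · obtain ⟨n, hn, rfl⟩ := hfull σ hσ
    exact ⟨n, hn, hAct n⟩

end Cfsg.Lib.FT.O4
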