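import Mathlib.GroupTheory.SpecificGroups.Alternating
import Mathlib.Data.ZMod.Basic
import Mathlib.Tactic.Ring

/-!
# The orthogonal module of `A₅` as a strongly closed subgroup: combinatorial model
-/

set_option autoImplicit false

namespace Cfsg.Lib.FT.O4
open Equiv

abbrev V5 := Fin 5 → ZMod 2
abbrev S5 := Perm (Fin 5)

def pv (σ : S5) (v : V5) : V5 := fun i => v (σ⁻¹ i)
def eqv (u v : V5) : Prop := u = v ∨ u = v + 1
instance (u v : V5) : Decidable (eqv u v) := by unfold eqv; infer_instance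
def e5 (i : Fin 5) : V5 := fun j => if j = i then 1 else 0
def ev (σ : S5) : Prop := Perm.sign σ = 1
instance (σ : S5) : Decidable (ev σ) := by unfold ev; infer_instance
def v4 (σ : S5) : Prop := ev σ ∧ σ * σ = 1 ∧ σ 4 = 4
instance (σ : S5) : Decidable (v4 σ) := by unfold v4; infer_instance
def par (v : V5) : ZMod 2 := v 0 + v 1 + v 2 + v 3
/-- represents an element of `⟨z⟩` -/
def zv (v : V5) : Prop := eqv v 0 ∨ eqv v (e5 4)
instance (v : V5) : Decidable (zv v) := by unfold zv; infer_instance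
def al : S5 := swap 0 1 * swap 2 3
def be : S5 := swap 0 2 * swap 1 3
def sg (i j : Bool) : S5 := (if i then al else 1) * (if j then be else 1)
def bv : V5 := e5 0 + e5 1

theorem pv_mul (σ τ : S5) (v : V5) : pv (σ * τ) v = pv σ (pv τ v) := by
  funext i; simp [pv]
theorem pv_one (v : V5) : pv 1 v = v := rfl
theorem pv_add (σ : S5) (u v : V5) : pv σ (u + v) = pv σ u + pv σ v := rfl
theorem ev_mul {σ τ : S5} (h : ev σ) (h' : ev τ) : ev (σ * τ) := by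
  unfold ev at *; rw [map_mul, h, h', one_mul]
theorem ev_inv {σ : S5} (h : ev σ) : ev σ⁻¹ := by unfold ev at *; rw [map_inv, h, inv_one]
theorem par_add (u v : V5) : par (u + v) = par u + par v := by simp only [par, Pi.add_apply]; ring
theorem add_self (v : V5) : v + v = 0 := by revert v; decide +kernel
theorem eqv_iff : ∀ u v : V5, (u + v = 0 ∨ u + v = 1) ↔ eqv u v := by decide +kernel
theorem eqv_par : ∀ u v : V5, eqv u v → par u = par v := by decide +kernel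
theorem d_faith : ∀ σ τ : S5, (∀ i, eqv (pv σ (e5 i)) (pv τ (e5 i))) → σ = τ := by decide +kernel
theorem d_ord : ∀ σ : S5, ev σ → σ * σ = 1 ∨ σ ^ 3 = 1 ∨ σ ^ 5 = 1 := by decide +kernel
theorem d_v4 : ∀ σ : S5, v4 σ → ∃ i j, σ = sg i j := by decide +kernel
theorem d_sg : ∀ i j, v4 (sg i j) := by decide +kernel
theorem d_sg_inj : ∀ i j k l, sg i j = sg k l → i = k ∧ j = l := by decide +kernel
theorem d_v4_mul : ∀ σ τ : S5, v4 σ → v4 τ → v4 (σ * τ) := by decide +kernel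
theorem d_v4_inv : ∀ σ : S5, v4 σ → σ⁻¹ = σ := by decide +kernel
theorem d_v4_conj : ∀ ρ σ : S5, ev ρ → ρ 4 = 4 → v4 σ → v4 (ρ * σ * ρ⁻¹) := by decide +kernel
theorem d_v4_conj' : ∀ ρ κ σ : S5, v4 κ → v4 σ → v4 (ρ * σ * ρ⁻¹) →
    (κ * ρ) * σ * (κ * ρ)⁻¹ = ρ * σ * ρ⁻¹ := fun ρ κ σ hk _ h => by
  have : ∀ κ τ : S5, v4 κ → v4 τ → κ * τ * κ⁻¹ = τ := by decide +kernel
  rw [← this κ _ hk h]; group
theorem d_trans : ∀ σ τ : S5, v4 σ → v4 τ → σ ≠ 1 → τ ≠ 1 →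
    ∃ ρ : S5, ev ρ ∧ ρ 4 = 4 ∧ ρ * σ * ρ⁻¹ = τ := by decide +kernel
theorem d_free : ∀ σ : S5, v4 σ → σ ≠ 1 → ∀ v, eqv (pv σ v) v → ∃ u, eqv (u + pv σ u) v := by
  decide +kernel
theorem d_orb : ∀ v : V5, ¬ eqv v 0 → ∃ σ : S5, ev σ ∧ (eqv (pv σ (e5 4)) v ∨ eqv (pv σ bv) v) := by
  decide +kernel
theorem d_fix4 : ∀ σ : S5, eqv (pv σ (e5 4)) (e5 4) → σ 4 = 4 := by decide +kernel
theorem d_fix4' : ∀ σ : S5, σ 4 = 4 → pv σ (e5 4) = e5 4 := by decide +kernel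
theorem d_par : ∀ σ : S5, σ 4 = 4 → ∀ v, par (pv σ v) = par v := by decide +kernel
theorem d_fixb : ∀ σ : S5, eqv (pv σ bv) bv → eqv (pv σ (e5 0) + e5 0) 0 ∨ eqv (pv σ (e5 0) + e5 0) bv := by
  decide +kernel
theorem d_cen : ∀ v : V5, eqv (pv al v) v → eqv (pv be v) v → zv v := by decide +kernel
theorem d_sq : ∀ i j, sg i j ≠ 1 → ∀ a : V5, zv (a + pv (sg i j) a) ↔ par a = 0 := by decide +kernel
theorem d_sq' : ∀ i j, ∀ a : V5, par a = 0 → zv (a + pv (sg i j) a) := by decide +kernel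
theorem d_cA0 : ∀ σ : S5, ev σ → (∀ a, par a = 0 → eqv (pv σ a) a) → σ = 1 := by decide +kernel
theorem d_f1 : ∀ σ : S5, ev σ → σ 4 = 4 → ∀ a, par a = 0 → ¬ zv a → zv (pv σ a + a) → σ * σ = 1 := by
  decide +kernel
theorem d_f2 : ∀ σ : S5, ev σ → σ 4 = 4 → ∀ i j, sg i j ≠ 1 →
    (∀ a, par a = 0 → eqv (pv (sg i j) (pv σ a)) (pv σ (pv (sg i j) a))) → σ * σ = 1 := by decide +kernel
theorem d_f3 : ∀ i j k l m n, (∀ a, par a = 0 →
    eqv (pv (sg m n) (pv (sg i j) a)) (pv (sg i j) (pv (sg k l) a))) → sg m n = sg k l := by decide +kernel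
theorem d_zv_par : ∀ v, zv v → par v = 0 := by decide +kernel

end Cfsg.Lib.FT.O4
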