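import Cfsg.Agent.Lib.SC.Model

/-!
# The orthogonal module of `A₅` as a strongly closed subgroup: centralizers are solvable
-/

set_option autoImplicit false

namespace Cfsg.Lib.FT.O4
open Subgroup Cfsg.Lib Cfsg.Lib.FT Equiv

variable {G : Type*} [Group G] {w : V5 → G} {A S : Subgroup G}

def ee (u v : G) (i j : Bool) : G := (if i then u else 1) * (if j then v else 1)

/-- lifts of the generators of the four-group -/
structure UV (S : Subgroup G) (w : V5 → G) (u v : G) : Prop where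
  uS : u ∈ S
  vS : v ∈ S
  au : Act w u al
  av : Act w v be
  u2 : u ^ 2 = 1
  v2 : v ^ 2 = 1

namespace UV
variable {u v : G} (k : UV S w u v)
include k

theorem mem (i j : Bool) : ee u v i j ∈ S := by
  refine S.mul_mem ?_ ?_ <;> split_ifs
  exacts [k.uS, one_mem _, k.vS, one_mem _]

theorem act (i j : Bool) : Act w (ee u v i j) (sg i j) := by
  refine Act.mul ?_ ?_ <;> split_ifs
  exacts [k.au, act_one, k.av, act_one]

theorem comm (h : Mod A S w) : ∃ c ∈ zpowers (w (e5 4)), v * u = c * (u * v) := by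
  have hu : u⁻¹ = u := inv_eq_of_mul_eq_one_right (by rw [← sq, k.u2])
  have hv : v⁻¹ = v := inv_eq_of_mul_eq_one_right (by rw [← sq, k.v2])
  obtain ⟨a, ha⟩ := h.mem_of_act' (S.mul_mem (S.mul_mem k.vS k.uS) (S.mul_mem k.vS k.uS))
    (by have := (k.av.mul k.au).mul (k.av.mul k.au); rwa [show be * al * (be * al) = 1 by decide] at this)
  refine ⟨w a, h.w_mem_z.2 (d_cen a (h.w_eq.1 ?_) (h.w_eq.1 ?_)), ?_⟩
  · rw [← k.au, ← h.w_inv a]
    nth_rewrite 1 [h.w_inv a]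
    rw [ha]
    simp only [mul_inv_rev, hu, hv]
    calc u * (v * u * (v * u)) * u = u * v * u * v * (u * u⁻¹) := by rw [hu]; group
      _ = _ := by group
  · rw [← k.av, ← h.w_inv a]
    nth_rewrite 1 [h.w_inv a]
    rw [ha]
    simp only [mul_inv_rev, hu, hv]
    calc v * (v * u * (v * u)) * v = (v * v⁻¹) * u * v * u * v := by rw [hv]; group
      _ = _ := by group
  · rw [ha]
    calc v * u = v * u * (v * (u * u⁻¹) * v⁻¹) := by group
      _ = _ := by rw [hu, hv]; group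

theorem mul (h : Mod A S w) (i j l m : Bool) :
    ∃ c ∈ zpowers (w (e5 4)), ee u v i j * ee u v l m = c * ee u v (xor i l) (xor j m) := by
  obtain ⟨c, hc, e⟩ := k.comm h
  have hu : u * u = 1 := by rw [← sq, k.u2]
  have hv : v * v = 1 := by rw [← sq, k.v2]
  have h1 : ∃ c ∈ zpowers (w (e5 4)), (if j then v else 1) * (if l then u else 1) =
      c * ((if l then u else 1) * (if j then v else 1)) := by
    cases j <;> cases l
    exacts [⟨1, one_mem _, by simp⟩, ⟨1, one_mem _, by simp⟩, ⟨1, one_mem _, by simp⟩, ⟨c, hc, by simpa using e⟩]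
  obtain ⟨d, hd, e1⟩ := h1
  have h2 : (if i then u else 1) * (if l then u else 1) = (if xor i l then u else 1) := by
    cases i <;> cases l <;> simp [hu]
  have h3 : (if j then v else 1) * (if m then v else 1) = (if xor j m then v else 1) := by
    cases j <;> cases m <;> simp [hv]
  have h4 : (if i then u else 1) * d = d * (if i then u else 1) := by
    refine Mod.comm_z hd (h.S_le_C1 ?_)
    split_ifs
    exacts [k.uS, one_mem _]
  refine ⟨d, hd, ?_⟩
  unfold ee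
  rw [← h2, ← h3]
  calc _ = (if i then u else 1) * ((if j then v else 1) * (if l then u else 1)) * (if m then v else 1) := by
        group
    _ = ((if i then u else 1) * d) * ((if l then u else 1) * (if j then v else 1)) * (if m then v else 1) := by
        rw [e1]; group
    _ = _ := by rw [h4]; group

theorem sq_mem (h : Mod A S w) (i j : Bool) : ee u v i j ^ 2 ∈ zpowers (w (e5 4)) := by
  obtain ⟨c, hc, e⟩ := k.mul h i j i j
  rw [sq, e]
  simpa [ee] using hc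

theorem mul' (h : Mod A S w) (a b : V5) (i j l m : Bool) : ∃ c, par c = par a + par b ∧
    w a * ee u v i j * (w b * ee u v l m) = w c * ee u v (xor i l) (xor j m) := by
  obtain ⟨c, hc, e⟩ := k.mul h i j l m
  obtain ⟨c, hc', rfl⟩ := h.exists_of_mem_z hc
  refine ⟨a + pv (sg i j) b + c, ?_, ?_⟩
  · rw [par_add, par_add, d_par _ (d_sg i j).2.2, d_zv_par c hc', add_zero]
  · rw [h.add, h.add, mul_assoc _ (w c), ← e, ← k.act i j]; group

theorem nf (h : Mod A S w) {x : G} (hx : x ∈ S) : ∃ a i j, x = w a * ee u v i j := by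
  obtain ⟨σ, hσ, ax⟩ := h.act x hx
  obtain ⟨i, j, rfl⟩ := d_v4 σ hσ
  obtain ⟨a, ha⟩ := h.mem_of_act' (S.mul_mem hx (S.inv_mem (k.mem i j)))
    (by simpa using ax.mul (k.act i j).inv)
  exact ⟨a, i, j, by rw [ha]; group⟩

theorem act' (h : Mod A S w) (a : V5) (i j : Bool) : Act w (w a * ee u v i j) (sg i j) := by
  simpa using (h.act_of_mem (h.w_mem a)).mul (k.act i j)

theorem nf_par (h : Mod A S w) {a b : V5} {i j l m : Bool} (e : w a * ee u v i j = w b * ee u v l m) :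
    par a = par b := by
  obtain ⟨rfl, rfl⟩ := d_sg_inj _ _ _ _ (h.uniq (k.act' h a i j) (e ▸ k.act' h b l m))
  exact eqv_par _ _ (h.w_eq.1 (mul_right_cancel e))

/-- the extraspecial subgroup of order 32 -/
def Q (h : Mod A S w) : Subgroup G where
  carrier := {x | ∃ a i j, par a = 0 ∧ x = w a * ee u v i j}
  mul_mem' := by
    rintro _ _ ⟨a, i, j, ha, rfl⟩ ⟨b, l, m, hb, rfl⟩
    obtain ⟨c, hc, e⟩ := k.mul' h a b i j l m
    exact ⟨c, _, _, by rw [hc, ha, hb, add_zero], e⟩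
  one_mem' := ⟨0, false, false, by decide, by simp [ee, h.w_zero]⟩
  inv_mem' := by
    rintro _ ⟨a, i, j, ha, rfl⟩
    obtain ⟨c, hc, e⟩ := k.mul' h a a i j i j
    obtain ⟨d, hd, e'⟩ := k.mul' h c a false false i j
    refine ⟨d, i, j, by rw [hd, hc, ha]; rfl, ?_⟩
    simp only [Bool.xor_self, Bool.false_xor] at e e'
    rw [← e', ← e]
    have h1 : (w c * ee u v false false) * (w c * ee u v false false) = 1 := by simp [ee, h.w_sq]
    rw [← e] at h1
    refine inv_eq_of_mul_eq_one_right ?_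
    rw [← h1]; group

variable (h : Mod A S w)

theorem mem_Q {a : V5} {i j : Bool} : w a * ee u v i j ∈ k.Q h ↔ par a = 0 :=
  ⟨fun ⟨_, _, _, hb, e⟩ => (k.nf_par h e).trans hb, fun e => ⟨a, i, j, e, rfl⟩⟩

theorem w_mem_Q {a : V5} : w a ∈ k.Q h ↔ par a = 0 := by
  rw [← k.mem_Q h (i := false) (j := false)]; simp [ee]

theorem Q_le : k.Q h ≤ S := by
  rintro _ ⟨a, i, j, -, rfl⟩
  exact S.mul_mem (h.le (h.w_mem a)) (k.mem i j)

theorem relIndex_Q : (k.Q h).relIndex S = 2 := by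
  refine index_eq_two_iff.2 ⟨⟨w (e5 0), h.le (h.w_mem _)⟩, fun x => ?_⟩
  obtain ⟨a, i, j, e⟩ := k.nf h x.2
  obtain ⟨c, hc, e'⟩ := k.mul' h a (e5 0) i j false false
  simp only [mem_subgroupOf, coe_mul, e]
  rw [show ee u v false false = 1 by simp [ee], mul_one] at e'
  rw [e', k.mem_Q h, k.mem_Q h, hc]
  exact (by decide : ∀ t : ZMod 2, Xor (t + par (e5 0) = 0) (t = 0)) _

theorem sq_Q {x : G} (hx : x ∈ k.Q h) : x ^ 2 ∈ zpowers (w (e5 4)) := by
  obtain ⟨a, i, j, ha, rfl⟩ := hx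
  rw [h.sq_mul (k.act i j)]
  exact mul_mem (h.w_mem_z.2 (d_sq' i j a ha)) (k.sq_mem h i j)

theorem mem_Q_of_sq {x : G} (hx : x ∈ S) (hA : x ∉ A) (h2 : x ^ 2 ∈ zpowers (w (e5 4))) : x ∈ k.Q h := by
  obtain ⟨a, i, j, rfl⟩ := k.nf h hx
  have h1 : sg i j ≠ 1 := fun e => hA (h.mem_of_act h.sylS.isPGroup h.le hx (e ▸ k.act' h a i j))
  rw [h.sq_mul (k.act i j), Subgroup.mul_mem_cancel_right _ (k.sq_mem h i j), h.w_mem_z, d_sq i j h1] at h2
  exact (k.mem_Q h).2 h2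

variable [Finite G] (hs : SCl A)
include hs

theorem closed {x : G} (hx : x ∈ S) {g : G} (hg : g ∈ C1[w (e5 4)]) (h1 : g * x * g⁻¹ ∈ k.Q h) :
    x ∈ k.Q h := by
  by_cases hA : x ∈ A
  · have h2 : g * x * g⁻¹ ∈ A :=
      hs S h.sylS.isPGroup h.le _ (k.Q_le h h1) g⁻¹ (by simpa [mul_assoc] using hA)
    obtain ⟨n, hn, e⟩ := hs.fusion h.ea.1 (elemAb_isPGroup h.ea) (h.le.trans h.S_le_C1) hg hA h2
    obtain ⟨σ, -, an⟩ := h.ex n hn.2
    have h4 : σ 4 = 4 := d_fix4 σ (h.w_eq.1 (by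
      rw [← an, mem_centralizer_singleton_iff.1 hn.1]; group))
    obtain ⟨a, rfl⟩ := (h.mem x).1 hA
    rw [e, an, k.w_mem_Q h, d_par σ h4] at h1
    exact (k.w_mem_Q h).2 h1
  · refine k.mem_Q_of_sq h hx hA ?_
    have h2 := k.sq_Q h h1
    rw [conj_pow] at h2
    have h3 := Mod.comm_z h2 hg
    have : x ^ 2 = g * x ^ 2 * g⁻¹ := by
      calc x ^ 2 = g⁻¹ * ((g * x ^ 2 * g⁻¹) * g) := by group
        _ = _ := by rw [← h3]; group
    rwa [this]

theorem norm_Q {n : G} (hn : n ∈ C1[w (e5 4)]) (hQ : n ∈ N[k.Q h]) :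
    ∃ σ, ev σ ∧ σ 4 = 4 ∧ ∀ a, par a = 0 → n * w a * n⁻¹ = w (pv σ a) := by
  have hA0 : n ∈ N[A ⊓ k.Q h] := by
    refine mem_normalizer_iff_map_conj.2 (eq_of_le_of_card_ge ?_ (card_map_conj _ _).ge)
    rintro _ ⟨x, hx, rfl⟩
    have h1 : n * x * n⁻¹ ∈ k.Q h := (mem_normalizer_iff.1 hQ x).1 hx.2
    exact ⟨hs S h.sylS.isPGroup h.le _ (k.Q_le h h1) n⁻¹ (by simpa [mul_assoc] using hx.1), h1⟩
  have hsyl : IsSylowIn 2 A C[A ⊓ k.Q h] := by
    refine ⟨(elemAb_le_centralizer h.ea).trans (centralizer_mono inf_le_left), elemAb_isPGroup h.ea,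
      fun R hR hRC hAR => le_antisymm (fun x hx => ?_) hAR⟩
    obtain ⟨σ, hσ, ax⟩ := h.ex x (hs.le_normalizer hR hAR hx)
    refine h.mem_of_act hR hAR hx ?_
    rwa [d_cA0 σ hσ fun a ha => h.w_eq.1 (by
      rw [← ax, ← mem_centralizer_iff.1 (hRC hx) _ ⟨h.w_mem a, (k.w_mem_Q h).2 ha⟩]; group)] at ax
  obtain ⟨c, hc, hc'⟩ := hsyl.exists_mul_mem_normalizer (le_normalizer_centralizer le_rfl hA0)
  obtain ⟨σ, hσ, an⟩ := h.ex _ hc'
  have key : ∀ a, par a = 0 → n * w a * n⁻¹ = w (pv σ a) := fun a ha => by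
    have h1 := (mem_normalizer_iff.1 hA0 _).1 (⟨h.w_mem a, (k.w_mem_Q h).2 ha⟩ : w a ∈ A ⊓ k.Q h)
    have h2 := mem_centralizer_iff.1 hc _ h1
    rw [← an]
    calc n * w a * n⁻¹ = c⁻¹ * (c * (n * w a * n⁻¹)) := by group
      _ = _ := by rw [← h2]; group
  refine ⟨σ, hσ, d_fix4 σ (h.w_eq.1 ?_), key⟩
  rw [← key _ (by decide), mem_centralizer_singleton_iff.1 hn]; group

omit [Finite G] hs k in
include h in
theorem twist {n y : G} {σ τ ρ : S5} (h4 : τ 4 = 4)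
    (key : ∀ a, par a = 0 → n * w a * n⁻¹ = w (pv σ a)) (ay : Act w y τ) (ay' : Act w (n * y * n⁻¹) ρ) :
    ∀ a, par a = 0 → eqv (pv ρ (pv σ a)) (pv σ (pv τ a)) := fun a ha => by
  rw [← h.w_eq, ← ay', ← key a ha, ← key _ ((d_par τ h4 a).trans ha), ← ay]; group

theorem free {n : G} (hn : n ∈ C1[w (e5 4)]) (hQ : n ∈ N[k.Q h]) {x : G} (hx : x ∈ k.Q h)
    (hxz : x ∉ zpowers (w (e5 4))) (hf : n * x * n⁻¹ * x⁻¹ ∈ zpowers (w (e5 4))) {y : G} (hy : y ∈ k.Q h) :
    n ^ 2 * y * (n ^ 2)⁻¹ * y⁻¹ ∈ zpowers (w (e5 4)) := by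
  obtain ⟨σ, hσ, h4, key⟩ := k.norm_Q h hs hn hQ
  have h2 : σ * σ = 1 := by
    obtain ⟨a, i, j, ha, rfl⟩ := hx
    by_cases h1 : sg i j = 1
    · obtain ⟨rfl, rfl⟩ := d_sg_inj i j false false (by rw [h1]; decide)
      rw [show ee u v false false = 1 by simp [ee], mul_one] at hxz hf
      rw [key a ha, h.w_inv, ← h.add, h.w_mem_z] at hf
      exact d_f1 σ hσ h4 a ha (fun e => hxz (h.w_mem_z.2 e)) hf
    · refine d_f2 σ hσ h4 i j h1 (twist h (d_sg i j).2.2 key (k.act' h a i j) ?_)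
      have := (h.act_of_mem (zpowers_le.2 (h.w_mem _) hf)).mul (k.act' h a i j)
      rwa [inv_mul_cancel_right, one_mul] at this
  obtain ⟨i, j, rfl⟩ := d_v4 σ ⟨hσ, h2, h4⟩
  have hy' : n * y * n⁻¹ ∈ k.Q h := (mem_normalizer_iff.1 hQ y).1 hy
  obtain ⟨b, l, m, -, e1⟩ := id hy
  obtain ⟨b', l', m', -, e2⟩ := id hy'
  have a1 : Act w y (sg l m) := e1 ▸ k.act' h b l m
  have a2 : Act w (n * y * n⁻¹) (sg l' m') := e2 ▸ k.act' h b' l' m'
  rw [d_f3 i j l m l' m' (twist h (d_sg l m).2.2 key a1 a2)] at a2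
  have h5 := (k.Q h).mul_mem hy' ((k.Q h).inv_mem hy)
  obtain ⟨d, hd⟩ := h.mem_of_act' (k.Q_le h h5) (by simpa using a2.mul a1.inv)
  rw [← hd, k.w_mem_Q h] at h5
  have : n ^ 2 * y * (n ^ 2)⁻¹ * y⁻¹ = w (d + pv (sg i j) d) := by
    rw [add_comm, h.add, ← key d h5, hd, sq]; group
  rw [this, h.w_mem_z]
  exact d_sq' i j d h5

include h in
theorem solv_a : Group.IsSolvable C1[w (e5 4)] := by
  obtain ⟨H, hH, hQ, hsol⟩ := exists_index_two_of_closed' (h.sylS.mono h.S_le_C1 le_top) (k.Q_le h)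
    (k.relIndex_Q h) fun x hx g hg => k.closed h hs hx hg
  have huQ : u ∈ k.Q h := by
    have := (k.mem_Q h (a := 0) (i := true) (j := false)).2 (by decide)
    simpa [ee, h.w_zero] using this
  have huA : u ∉ A := fun e => absurd (h.uniq k.au (h.act_of_mem e)) (by decide)
  have hzA : zpowers (w (e5 4)) ≤ A := zpowers_le.2 (h.w_mem _)
  refine hsol (sc_solv_of_free_mod' hQ (hQ.le ((k.w_mem_Q h).2 (by decide))) hH (by rw [sq, h.w_sq])
    (fun x hx => k.sq_Q h hx) ?_ (fun n hn hn' x hx hxz hf y hy => k.free h hs (hH hn) hn' hx hxz hf hy)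
    (a := w bv) (b := u) ((k.w_mem_Q h).2 (by decide)) huQ (fun e => absurd (h.w_mem_z.1 e) (by decide))
    (fun e => huA (hzA e)) fun g _ e => huA ?_)
  · have := relIndex_mul_card (k.Q_le h)
    rw [k.relIndex_Q h, h.cardS] at this
    omega
  · have h1 : g * w bv * g⁻¹ ∈ A := by
      refine hs S h.sylS.isPGroup h.le _ ?_ g⁻¹ (by simpa [mul_assoc] using h.w_mem bv)
      exact (S.mul_mem_cancel_right (S.inv_mem k.uS)).1 (h.le (hzA e))
    exact A.inv_mem_iff.1 ((A.mul_mem_cancel_left h1).1 (hzA e))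

end UV

namespace Mod
variable [Finite G] (h : Mod A S w) (hs : SCl A)
include h hs

theorem solv_e (i : Fin 5) : Group.IsSolvable C1[w (e5 i)] := by
  obtain ⟨u, uS, au, u2⟩ := h.exists_inv (σ := al) (by decide) (by decide)
  obtain ⟨v, vS, av, v2⟩ := h.exists_inv (σ := be) (by decide) (by decide)
  have h1 := UV.solv_a ⟨uS, vS, au, av, u2, v2⟩ h hs
  obtain ⟨σ, hσ, e⟩ := (by decide +kernel : ∀ i : Fin 5, ∃ σ : S5, ev σ ∧ pv σ (e5 4) = e5 i) i
  obtain ⟨n, hn⟩ := h.sur σ hσ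
  rw [← e, ← hn, ← conj_centralizer_singleton]
  exact isSolvable_conj_iff.2 h1

theorem solv_b : Group.IsSolvable C1[w bv] := by
  have hA : A ≤ C1[w bv] := (elemAb_le_centralizer h.ea).trans (centralizer_le_singleton (h.w_mem _))
  obtain ⟨P, hP, hAP⟩ := exists_isSylowIn_ge (elemAb_isPGroup h.ea) hA
  refine sc_solv_of_isolated_mod' hP (b := w bv) (t := w (e5 0)) (hA (h.w_mem _)) le_rfl
    (by rw [sq, h.w_sq]) (hAP (h.w_mem _)) (by rw [sq, h.w_sq]) (fun g hg e => ?_) (h.solv_e hs 0)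
  have h2 : g * w (e5 0) * g⁻¹ ∈ A :=
    hs P hP.isPGroup hAP _ e g⁻¹ (by simpa [mul_assoc] using h.w_mem (e5 0))
  obtain ⟨n, hn, e⟩ := hs.fusion h.ea.1 (elemAb_isPGroup h.ea) hA hg (h.w_mem _) h2
  obtain ⟨σ, -, an⟩ := h.ex n hn.2
  rw [e, an, h.w_inv, ← h.add]
  rcases d_fixb σ (h.w_eq.1 (by rw [← an, mem_centralizer_singleton_iff.1 hn.1]; group)) with e | e
  · rw [h.w_eq_one.2 e]; exact one_mem _
  · rw [h.w_eq.2 e]; exact mem_zpowers _

omit hs in
theorem normal (h3 : Nat.card {c : ConjClasses G // ∃ x ∈ c.carrier, orderOf x = 2} = 3) :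
    (A ⊔ oddCore G).Normal := by
  have hs := h.scl h3
  refine hs.normal_sup h.ea h.card (fun e he h1 => isPConstrained_of_isSolvable ?_) (h.w_mem _) (h.w_mem _)
    (fun e => absurd (h.w_eq_one.1 e) (by decide)) (fun e => absurd (h.w_eq_one.1 e) (by decide))
    (h.not_conj h3)
  rcases h.conj_in he h1 with e | e <;> obtain ⟨g, rfl⟩ := isConj_iff.1 e <;>
    rw [← conj_centralizer_singleton, isSolvable_conj_iff]
  exacts [h.solv_e hs 4, h.solv_b hs]

end Mod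

end Cfsg.Lib.FT.O4
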