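import Cfsg.Agent.Lib.SC.Amb
import Cfsg.Agent.Lib.SC.Dec

/-!
# The orthogonal module of `A₅` as a strongly closed subgroup: fusion
-/

set_option autoImplicit false

namespace Cfsg.Lib.FT.O4
open Subgroup Cfsg.Lib Cfsg.Lib.FT Equiv

variable {G : Type*} [Group G]

def Act (w : V5 → G) (n : G) (σ : S5) : Prop := ∀ v, n * w v * n⁻¹ = w (pv σ v)

variable {w : V5 → G} {n m : G} {σ τ : S5}

theorem Act.mul (h : Act w n σ) (h' : Act w m τ) : Act w (n * m) (σ * τ) := fun v => by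
  rw [pv_mul, ← h, ← h']; group

theorem act_one : Act w 1 1 := fun v => by rw [pv_one]; group

theorem Act.inv (h : Act w n σ) : Act w n⁻¹ σ⁻¹ := fun v => by
  have := h (pv σ⁻¹ v)
  rw [← pv_mul, mul_inv_cancel, pv_one] at this
  rw [← this]; group

theorem Act.pow (h : Act w n σ) (k : ℕ) : Act w (n ^ k) (σ ^ k) := by
  induction k with
  | zero => simpa using act_one
  | succ k ih => rw [pow_succ, pow_succ]; exact ih.mul h

theorem Act.comm (h : Act w n σ) (v : V5) : n * w v = w (pv σ v) * n := by rw [← h]; group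

structure Mod (A S : Subgroup G) (w : V5 → G) : Prop where
  add : ∀ u v, w (u + v) = w u * w v
  mem : ∀ x, x ∈ A ↔ ∃ v, w v = x
  ker : ∀ v, w v = 1 ↔ v = 0 ∨ v = 1
  ex : ∀ n ∈ N[A], ∃ σ, ev σ ∧ Act w n σ
  sur : ∀ σ, ev σ → ∃ n, Act w n σ
  syl : IsSylowIn 2 A C[A]
  ea : IsElementaryAbelian 2 A
  card : 2 ^ 3 ≤ Nat.card A
  sylS : IsSylowIn 2 S ⊤
  le : A ≤ S
  act : ∀ x ∈ S, ∃ σ, v4 σ ∧ Act w x σ
  full : ∀ σ, v4 σ → ∃ x ∈ S, Act w x σ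
  cardS : Nat.card S = 64

namespace Mod
variable {A S : Subgroup G} (h : Mod A S w)
include h

theorem w_mem (v : V5) : w v ∈ A := (h.mem _).2 ⟨v, rfl⟩
theorem w_zero : w 0 = 1 := (h.ker 0).2 (Or.inl rfl)
theorem w_sq (v : V5) : w v * w v = 1 := by rw [← h.add, add_self, h.w_zero]
theorem w_inv (v : V5) : (w v)⁻¹ = w v := inv_eq_of_mul_eq_one_right (h.w_sq v)
theorem w_eq {u v : V5} : w u = w v ↔ eqv u v := by
  rw [← eqv_iff, ← h.ker, h.add, ← h.w_inv v, mul_inv_eq_one, h.w_inv]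
theorem w_eq_one {v : V5} : w v = 1 ↔ eqv v 0 := by rw [← h.w_zero, h.w_eq]

theorem w_mem_z {v : V5} : w v ∈ zpowers (w (e5 4)) ↔ zv v := by
  rw [zv, ← h.w_eq, ← h.w_eq, h.w_zero]
  refine ⟨fun ⟨k, hk⟩ => ?_, fun e => e.elim (fun e => e ▸ one_mem _) fun e => e ▸ mem_zpowers _⟩
  have h2 : w (e5 4) ^ (2 : ℤ) = 1 := by rw [zpow_two, h.w_sq]
  rcases Int.even_or_odd' k with ⟨j, rfl | rfl⟩
  · left; rw [← hk]; simp only []; rw [zpow_mul, h2, one_zpow]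
  · right; rw [← hk]; simp only []; rw [zpow_add_one, zpow_mul, h2, one_zpow, one_mul]

theorem exists_of_mem_z {c : G} (hc : c ∈ zpowers (w (e5 4))) : ∃ v, zv v ∧ w v = c := by
  obtain ⟨v, rfl⟩ := (h.mem c).1 (zpowers_le.2 (h.w_mem _) hc)
  exact ⟨v, h.w_mem_z.1 hc, rfl⟩

theorem uniq (h1 : Act w n σ) (h2 : Act w n τ) : σ = τ :=
  d_faith _ _ fun _ => h.w_eq.1 ((h1 _).symm.trans (h2 _))

theorem act_iff : Act w n 1 ↔ n ∈ C[A] := by
  rw [mem_centralizer_iff]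
  refine ⟨fun e x hx => ?_, fun e v => ?_⟩
  · obtain ⟨v, rfl⟩ := (h.mem x).1 hx
    exact (e.comm v).symm
  · rw [← e _ (h.w_mem v), pv_one]; group

theorem act_of_mem {a : G} (ha : a ∈ A) : Act w a 1 := h.act_iff.2 (elemAb_le_centralizer h.ea ha)

theorem mem_N (h1 : Act w n σ) : n ∈ N[A] := by
  rw [mem_normalizer_iff]
  intro x
  refine ⟨fun hx => ?_, fun hx => ?_⟩
  · obtain ⟨v, rfl⟩ := (h.mem x).1 hx
    rw [h1]; exact h.w_mem _
  · obtain ⟨v, hv⟩ := (h.mem _).1 hx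
    have := h1.inv v
    rw [hv] at this
    have e : x = w (pv σ⁻¹ v) := by rw [← this]; group
    rw [e]; exact h.w_mem _

theorem mem_of_act {P : Subgroup G} (hP : IsPGroup 2 P) (hAP : A ≤ P) {x : G} (hx : x ∈ P)
    (h1 : Act w x 1) : x ∈ A :=
  (h.syl.maximal (P ⊓ C[A]) (hP.to_le inf_le_left) inf_le_right
    (le_inf hAP (elemAb_le_centralizer h.ea))).le ⟨hx, h.act_iff.1 h1⟩

theorem mem_of_act' {x : G} (hx : x ∈ S) (h1 : Act w x 1) : ∃ v, w v = x :=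
  (h.mem x).1 (h.mem_of_act h.sylS.isPGroup h.le hx h1)

theorem S_le_C1 : S ≤ C1[w (e5 4)] := fun x hx => by
  obtain ⟨σ, hσ, h1⟩ := h.act x hx
  rw [mem_centralizer_singleton_iff, h1.comm, d_fix4' σ hσ.2.2]

omit h in
theorem comm_z {c x : G} (hc : c ∈ zpowers (w (e5 4))) (hx : x ∈ C1[w (e5 4)]) : x * c = c * x := by
  rw [← centralizer_zpowers] at hx
  exact (mem_centralizer_iff.1 hx c hc).symm

/-- squares -/
theorem sq_mul {x : G} (h1 : Act w x σ) (a : V5) : (w a * x) ^ 2 = w (a + pv σ a) * x ^ 2 := by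
  rw [h.add, ← h1]; simp only [sq]; group

theorem exists_inv (hσ : v4 σ) (h1 : σ ≠ 1) : ∃ x ∈ S, Act w x σ ∧ x ^ 2 = 1 := by
  obtain ⟨x, hx, hx'⟩ := h.full σ hσ
  obtain ⟨v, hv⟩ := h.mem_of_act' (S.pow_mem hx 2) (by have := hx'.pow 2; rwa [sq σ, hσ.2.1] at this)
  obtain ⟨u, hu⟩ := d_free σ hσ h1 v (h.w_eq.1 (by rw [← hx', hv]; group))
  refine ⟨w u * x, S.mul_mem (h.le (h.w_mem u)) hx, ?_, ?_⟩
  · simpa using (h.act_of_mem (h.w_mem u)).mul hx'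
  · rw [h.sq_mul hx', h.w_eq.2 hu, ← hv, h.w_sq]

theorem conj_of_act {x y : G} (hx : x ∈ S) (hy : y ∈ S) (hx2 : x ^ 2 = 1) (hy2 : y ^ 2 = 1)
    (hσ : v4 σ) (h1 : σ ≠ 1) (ax : Act w x σ) (ay : Act w y σ) : IsConj x y := by
  obtain ⟨v, hv⟩ := h.mem_of_act' (S.mul_mem hy (S.inv_mem hx)) (by simpa using ay.mul ax.inv)
  have e : y = w v * x := by rw [hv]; group
  have h2 := h.sq_mul ax v
  rw [← e, hy2, hx2, mul_one, eq_comm, h.add, ← h.w_inv (pv σ v), mul_inv_eq_one] at h2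
  obtain ⟨u, hu⟩ := d_free σ hσ h1 v (h.w_eq.1 h2.symm)
  refine isConj_iff.2 ⟨w u, ?_⟩
  rw [e, ← h.w_eq.2 hu, h.add, ← ax, h.w_inv]; group

variable [Finite G]

theorem exists_norm {ρ : S5} (h1 : ev ρ) (h2 : ρ 4 = 4) : ∃ r ∈ N[S], ∃ κ, v4 κ ∧ Act w r (κ * ρ) := by
  let L : Subgroup G :=
    { carrier := {n | ∃ σ, v4 σ ∧ Act w n σ}
      mul_mem' := fun ⟨σ, a, b⟩ ⟨τ, c, d⟩ => ⟨_, d_v4_mul _ _ a c, b.mul d⟩
      one_mem' := ⟨1, by decide, act_one⟩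
      inv_mem' := fun ⟨σ, a, b⟩ => ⟨σ, a, d_v4_inv σ a ▸ b.inv⟩ }
  obtain ⟨n, hn⟩ := h.sur ρ h1
  have hnL : n ∈ N[L] := by
    refine mem_normalizer_iff_map_conj.2 (eq_of_le_of_card_ge ?_ (card_map_conj _ _).ge)
    rintro _ ⟨x, ⟨σ, a, b⟩, rfl⟩
    exact ⟨_, d_v4_conj ρ σ h1 h2 a, (hn.mul b).mul hn.inv⟩
  obtain ⟨k, ⟨κ, a, b⟩, hk⟩ := (h.sylS.mono (L := L) h.act le_top).exists_mul_mem_normalizer hnL
  exact ⟨_, hk, κ, a, d_v4_inv κ a ▸ b.inv.mul hn⟩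

theorem conj_out {x y : G} (hx : x ∈ S) (hy : y ∈ S) (hx2 : x ^ 2 = 1) (hy2 : y ^ 2 = 1)
    (hxA : x ∉ A) (hyA : y ∉ A) : IsConj x y := by
  obtain ⟨σ, hσ, ax⟩ := h.act x hx
  obtain ⟨τ, hτ, ay⟩ := h.act y hy
  have h1 : σ ≠ 1 := fun e => hxA (h.mem_of_act h.sylS.isPGroup h.le hx (e ▸ ax))
  have h2 : τ ≠ 1 := fun e => hyA (h.mem_of_act h.sylS.isPGroup h.le hy (e ▸ ay))
  obtain ⟨ρ, a, b, c⟩ := d_trans σ τ hσ hτ h1 h2
  obtain ⟨r, hr, κ, hκ, ar⟩ := h.exists_norm a b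
  have h3 := (ar.mul ax).mul ar.inv
  rw [d_v4_conj' ρ κ σ hκ hσ (c ▸ hτ), c] at h3
  refine (isConj_iff.2 ⟨r, rfl⟩).trans (h.conj_of_act ((mem_normalizer_iff.1 hr x).1 hx) hy ?_ hy2 hτ h2 h3 ay)
  rw [conj_pow, hx2]; group

omit [Finite G] in
theorem conj_in {e : G} (he : e ∈ A) (h1 : e ≠ 1) : IsConj (w (e5 4)) e ∨ IsConj (w bv) e := by
  obtain ⟨v, rfl⟩ := (h.mem e).1 he
  obtain ⟨σ, hσ, h2⟩ := d_orb v fun e => h1 (h.w_eq_one.2 e)
  obtain ⟨n, hn⟩ := h.sur σ hσ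
  exact h2.imp (fun e => isConj_iff.2 ⟨n, (hn _).trans (h.w_eq.2 e)⟩)
    fun e => isConj_iff.2 ⟨n, (hn _).trans (h.w_eq.2 e)⟩

omit h in
theorem card_le_two {p q : G} (hc : ∀ t : G, orderOf t = 2 → IsConj p t ∨ IsConj q t) :
    Nat.card {c : ConjClasses G // ∃ x ∈ c.carrier, orderOf x = 2} ≤ 2 := by
  classical
  have : Nat.card {c : ConjClasses G // ∃ x ∈ c.carrier, orderOf x = 2} ≤
      Nat.card ({ConjClasses.mk p, ConjClasses.mk q} : Finset (ConjClasses G)) := by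
    refine Nat.card_le_card_of_injective (fun c => ⟨c.1, ?_⟩) fun a b e => Subtype.ext (congrArg (·.1) e)
    obtain ⟨x, hx, h2⟩ := c.2
    rw [← ConjClasses.mem_carrier_iff_mk_eq.1 hx, Finset.mem_insert, Finset.mem_singleton]
    exact (hc x h2).imp (fun e => ConjClasses.mk_eq_mk_iff_isConj.2 e.symm)
      fun e => ConjClasses.mk_eq_mk_iff_isConj.2 e.symm
  rw [Nat.card_eq_fintype_card (α := ({ConjClasses.mk p, ConjClasses.mk q} : Finset (ConjClasses G))),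
    Fintype.card_coe] at this
  exact this.trans Finset.card_le_two

theorem exists_conj_S {t : G} (ht : orderOf t = 2) : ∃ x ∈ S, IsConj x t ∧ x ^ 2 = 1 ∧ x ≠ 1 := by
  have h2 : t ^ 2 = 1 := ht ▸ pow_orderOf_eq_one t
  obtain ⟨k, -, hk⟩ := h.sylS.exists_conj_le (elemAb_isPGroup (elemAb_zpowers h2)) le_top
  refine ⟨_, hk (conj_mem_conj (mem_zpowers t) k), (isConj_iff.2 ⟨k, rfl⟩).symm, ?_, ?_⟩
  · rw [conj_pow, h2]; group
  · intro e
    rw [conj_eq_one_iff] at e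
    rw [e, orderOf_one] at ht
    omega

theorem scl (h3 : Nat.card {c : ConjClasses G // ∃ x ∈ c.carrier, orderOf x = 2} = 3) : SCl A := by
  refine SCl.of_sylow h.sylS fun x hx g hg => ?_
  by_contra hxA
  have h1 : g * x * g⁻¹ ≠ 1 := fun e => hxA (by rw [conj_eq_one_iff] at e; rw [e]; exact one_mem _)
  have hx2 : x ^ 2 = 1 := by
    have := h.ea.2 _ hg
    rwa [conj_pow, conj_eq_one_iff] at this
  have := card_le_two (p := w (e5 4)) (q := w bv) fun t ht => by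
    obtain ⟨y, hy, hc, hy2, hy1⟩ := h.exists_conj_S ht
    by_cases hyA : y ∈ A
    · exact (h.conj_in hyA hy1).imp (·.trans hc) (·.trans hc)
    · have h4 : IsConj (g * x * g⁻¹) t :=
        ((isConj_iff.2 ⟨g, rfl⟩).symm.trans (h.conj_out hx hy hx2 hy2 hxA hyA)).trans hc
      exact (h.conj_in hg h1).imp (·.trans h4) (·.trans h4)
  omega

theorem not_conj (h3 : Nat.card {c : ConjClasses G // ∃ x ∈ c.carrier, orderOf x = 2} = 3) :
    ¬ IsConj (w (e5 4)) (w bv) := by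
  intro hab
  obtain ⟨x, hx, ax, hx2⟩ := h.exists_inv (σ := al) (by decide) (by decide)
  have hxA : x ∉ A := fun e => absurd (h.uniq ax (h.act_of_mem e)) (by decide)
  have := card_le_two (p := w (e5 4)) (q := x) fun t ht => by
    obtain ⟨y, hy, hc, hy2, hy1⟩ := h.exists_conj_S ht
    by_cases hyA : y ∈ A
    · exact Or.inl ((h.conj_in hyA hy1).elim (·.trans hc) fun e => (hab.trans e).trans hc)
    · exact Or.inr ((h.conj_out hx hy hx2 hy2 hxA hyA).trans hc)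
  omega

end Mod

end Cfsg.Lib.FT.O4
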